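import Cfsg.Agent.AutOrth.SemiSim
import Cfsg.Agent.H847.IF.Abs

/-!
# S5719 (involution fixity), orthogonal groups, `q` odd: the relative PHI (helper274)

* `Fund Q z` : `z = -1` on two orthogonal hyperbolic pairs, `z = 1` on their orthogonal complement.
* `extE` : the Levi homomorphism `E (Q restricted to {e, f}ᗮ) →* E Q`.
* `card_RS` : the Siegel group of a singular vector has order `q ^ (M - 2)`.
* **`phi`** : `q ^ psi M * c ≤ |E Q × Γ : X|`, from `ExSing` (every `X ≤ E Q` without fundamental elements meets some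
  Siegel group in at most `q ^ 2` elements).
-/

set_option autoImplicit false
set_option linter.unusedSectionVars false

namespace Cfsg.Agent.H274.IF

open QuadraticMap hiding proj
open Module Cfsg.Agent.LieClassical.OrthCore Cfsg.Agent.LieClassical.OrthTrans
  Cfsg.Agent.AutOrth.SemiSim

universe u v w

section Gen

variable {F V : Type*} [Field F] [AddCommGroup V] [Module F V] {Q : QuadraticForm F V}

/-- fundamental: `-1` on two orthogonal hyperbolic pairs, `1` on their orthogonal complement -/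
def Fund (Q : QuadraticForm F V) (z : ↥(E Q)) : Prop :=
  ∃ e₁ f₁ e₂ f₂ : V, Hyp Q e₁ f₁ ∧ Hyp Q e₂ f₂ ∧ polar Q e₁ e₂ = 0 ∧ polar Q e₁ f₂ = 0 ∧ polar Q f₁ e₂ = 0 ∧
    polar Q f₁ f₂ = 0 ∧ (z : V ≃ₗ[F] V) e₁ = -e₁ ∧ (z : V ≃ₗ[F] V) f₁ = -f₁ ∧ (z : V ≃ₗ[F] V) e₂ = -e₂ ∧
    (z : V ≃ₗ[F] V) f₂ = -f₂ ∧
    ∀ v, polar Q e₁ v = 0 → polar Q f₁ v = 0 → polar Q e₂ v = 0 → polar Q f₂ v = 0 → (z : V ≃ₗ[F] V) v = v

theorem Fund.mul_self {z : ↥(E Q)} (h : Fund Q z) : z * z = 1 := by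
  obtain ⟨e₁, f₁, e₂, f₂, h1, h2, h3, h4, h5, h6, z1, z2, z3, z4, hz⟩ := h
  refine ext_E fun v => ?_
  show (z : V ≃ₗ[F] V) ((z : V ≃ₗ[F] V) v) = v
  obtain ⟨v', hv', hv⟩ : ∃ v', (polar Q e₁ v' = 0 ∧ polar Q f₁ v' = 0 ∧ polar Q e₂ v' = 0 ∧ polar Q f₂ v' = 0) ∧
      ∃ a b c d : F, v = v' + a • e₁ + b • f₁ + c • e₂ + d • f₂ := by
    refine ⟨proj Q e₁ f₁ (proj Q e₂ f₂ v), ⟨polar_proj_left h1 _, polar_proj_right h1 _, ?_, ?_⟩, ?_⟩
    · rw [polar_proj_of_perp h3 h5, polar_proj_left h2]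
    · rw [polar_proj_of_perp h4 h6, polar_proj_right h2]
    · refine ⟨polar Q f₁ (proj Q e₂ f₂ v), polar Q e₁ (proj Q e₂ f₂ v), polar Q f₂ v, polar Q e₂ v, ?_⟩
      conv_rhs => rw [proj]
      generalize polar Q f₁ (proj Q e₂ f₂ v) = a
      generalize polar Q e₁ (proj Q e₂ f₂ v) = b
      rw [proj]
      module
  obtain ⟨a, b, c, d, rfl⟩ := hv
  have hz' := hz v' hv'.1 hv'.2.1 hv'.2.2.1 hv'.2.2.2
  simp only [map_add, map_smul, hz', z1, z2, z3, z4, smul_neg, map_neg, neg_neg]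

theorem Fund.conj {z : ↥(E Q)} (h : Fund Q z) (g : ↥(E Q)) : Fund Q (g * z * g⁻¹) := by
  obtain ⟨e₁, f₁, e₂, f₂, h1, h2, h3, h4, h5, h6, z1, z2, z3, z4, hz⟩ := h
  have hg := E_le_O g.2
  have key : ∀ x : V, ((g * z * g⁻¹ : ↥(E Q)) : V ≃ₗ[F] V) ((g : V ≃ₗ[F] V) x) =
      (g : V ≃ₗ[F] V) ((z : V ≃ₗ[F] V) x) := by
    intro x
    show (g : V ≃ₗ[F] V) ((z : V ≃ₗ[F] V) ((g : V ≃ₗ[F] V).symm ((g : V ≃ₗ[F] V) x))) = _
    rw [LinearEquiv.symm_apply_apply]
  refine ⟨(g : V ≃ₗ[F] V) e₁, (g : V ≃ₗ[F] V) f₁, (g : V ≃ₗ[F] V) e₂, (g : V ≃ₗ[F] V) f₂, h1.map hg, h2.map hg,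
    by rw [polar_map hg, h3], by rw [polar_map hg, h4], by rw [polar_map hg, h5], by rw [polar_map hg, h6],
    by rw [key, z1, map_neg], by rw [key, z2, map_neg], by rw [key, z3, map_neg], by rw [key, z4, map_neg], ?_⟩
  intro v k1 k2 k3 k4
  obtain ⟨v, rfl⟩ := (g : V ≃ₗ[F] V).surjective v
  rw [polar_map hg] at k1 k2 k3 k4
  rw [key, hz v k1 k2 k3 k4]

/-! ### the Levi homomorphism -/

/-- the orthogonal complement of a pair -/
def Wp (Q : QuadraticForm F V) (e f : V) : Submodule F V :=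
  LinearMap.ker ((polarBilin Q e).prod (polarBilin Q f))

theorem mem_Wp {e f v : V} : v ∈ Wp Q e f ↔ polar Q e v = 0 ∧ polar Q f v = 0 := by
  rw [Wp, LinearMap.mem_ker]
  show (polar Q e v, polar Q f v) = (0 : F × F) ↔ _
  rw [Prod.mk_eq_zero]

/-- the restricted form -/
def Qp (Q : QuadraticForm F V) (e f : V) : QuadraticForm F (Wp Q e f) := Q.comp (Wp Q e f).subtype

theorem Qp_apply (e f : V) (w : Wp Q e f) : Qp Q e f w = Q (w : V) := rfl

theorem polar_Qp (e f : V) (w w' : Wp Q e f) : polar (Qp Q e f) w w' = polar Q (w : V) w' := rfl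

variable {e f : V}

/-- the projection -/
def pr (h : Hyp Q e f) : V →ₗ[F] Wp Q e f where
  toFun v := ⟨proj Q e f v, mem_Wp.2 ⟨polar_proj_left h v, polar_proj_right h v⟩⟩
  map_add' v v' := by
    apply Subtype.ext
    show proj Q e f (v + v') = proj Q e f v + proj Q e f v'
    simp only [proj, polar_add_right]
    module
  map_smul' a v := by
    apply Subtype.ext
    show proj Q e f (a • v) = a • proj Q e f v
    simp only [proj, polar_smul_right, smul_eq_mul]
    module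

theorem pr_coe (h : Hyp Q e f) (v : V) : ((pr h v : Wp Q e f) : V) = proj Q e f v := rfl

theorem pr_self (h : Hyp Q e f) (w : Wp Q e f) : pr h (w : V) = w := by
  apply Subtype.ext
  rw [pr_coe, proj, (mem_Wp.1 w.2).1, (mem_Wp.1 w.2).2]
  module

theorem polar_pr (h : Hyp Q e f) (w : Wp Q e f) (v : V) : polar Q (w : V) v = polar (Qp Q e f) w (pr h v) := by
  rw [polar_Qp, pr_coe, polar_proj_of_perp (mem_Wp.1 w.2).1 (mem_Wp.1 w.2).2]

theorem pr_add (h : Hyp Q e f) (v : V) (w : Wp Q e f) : pr h (v + ((w - pr h v : Wp Q e f) : V)) = w := by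
  rw [map_add, pr_self, add_sub_cancel]

/-- extension of an automorphism -/
def extL (h : Hyp Q e f) (g : Wp Q e f ≃ₗ[F] Wp Q e f) : V ≃ₗ[F] V where
  toFun v := v + ((g (pr h v) - pr h v : Wp Q e f) : V)
  map_add' v w := by
    simp only [map_add, Submodule.coe_sub, Submodule.coe_add]
    abel
  map_smul' c v := by
    simp only [map_smul, Submodule.coe_sub, Submodule.coe_smul, RingHom.id_apply, smul_add, smul_sub]
  invFun v := v + ((g.symm (pr h v) - pr h v : Wp Q e f) : V)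
  left_inv v := by
    simp only [pr_add, LinearEquiv.symm_apply_apply]
    rw [Submodule.coe_sub, Submodule.coe_sub]
    abel
  right_inv v := by
    simp only [pr_add, LinearEquiv.apply_symm_apply]
    rw [Submodule.coe_sub, Submodule.coe_sub]
    abel

theorem extL_apply (h : Hyp Q e f) (g : Wp Q e f ≃ₗ[F] Wp Q e f) (v : V) :
    extL h g v = v + ((g (pr h v) - pr h v : Wp Q e f) : V) := rfl

/-- the homomorphism of the linear groups -/
def extH (h : Hyp Q e f) : (Wp Q e f ≃ₗ[F] Wp Q e f) →* (V ≃ₗ[F] V) where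
  toFun := extL h
  map_one' := by
    apply LinearEquiv.ext
    intro v
    rw [extL_apply]
    show v + ((pr h v - pr h v : Wp Q e f) : V) = v
    rw [sub_self, Submodule.coe_zero, add_zero]
  map_mul' g k := by
    apply LinearEquiv.ext
    intro v
    show v + ((g (k (pr h v)) - pr h v : Wp Q e f) : V) = extL h g (extL h k v)
    rw [extL_apply, extL_apply]
    have h1 : pr h (v + ((k (pr h v) - pr h v : Wp Q e f) : V)) = k (pr h v) := by
      rw [map_add, pr_self, add_sub_cancel]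
    rw [h1]
    simp only [Submodule.coe_sub]
    abel

theorem extH_siegel (h : Hyp Q e f) {u w : Wp Q e f} (hu : Qp Q e f u = 0) (hw : polar (Qp Q e f) u w = 0) :
    extH h (siegel (Qp Q e f) u w hu hw) = siegel Q (u : V) (w : V) hu hw := by
  apply LinearEquiv.ext
  intro v
  show v + ((siegel (Qp Q e f) u w hu hw (pr h v) - pr h v : Wp Q e f) : V) = _
  rw [siegel_apply, siegel_apply (Q := Q) (u := (u : V)) (w := (w : V)) hu hw v, polar_pr h u v, polar_pr h w v]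
  simp only [Submodule.coe_sub, Submodule.coe_add, Submodule.coe_smul, Qp_apply]
  abel

theorem extH_mem (h : Hyp Q e f) {g : Wp Q e f ≃ₗ[F] Wp Q e f} (hg : g ∈ E (Qp Q e f)) : extH h g ∈ E Q := by
  have h1 : E (Qp Q e f) ≤ (E Q).comap (extH h) := by
    rw [E, Subgroup.closure_le]
    rintro _ ⟨u, w, hu, hw, rfl⟩
    rw [SetLike.mem_coe, Subgroup.mem_comap, extH_siegel h hu hw]
    exact siegel_mem_E _ _
  exact h1 hg

/-- **the Levi homomorphism** -/
def extE (h : Hyp Q e f) : ↥(E (Qp Q e f)) →* ↥(E Q) :=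
  ((extH h).comp (E (Qp Q e f)).subtype).codRestrict _ (fun g => extH_mem h g.2)

theorem extE_apply (h : Hyp Q e f) (g : ↥(E (Qp Q e f))) (v : V) :
    ((extE h g : ↥(E Q)) : V ≃ₗ[F] V) v =
      v + (((g : Wp Q e f ≃ₗ[F] Wp Q e f) (pr h v) - pr h v : Wp Q e f) : V) := rfl

theorem extE_coe (h : Hyp Q e f) (g : ↥(E (Qp Q e f))) (w : Wp Q e f) :
    ((extE h g : ↥(E Q)) : V ≃ₗ[F] V) (w : V) = (((g : Wp Q e f ≃ₗ[F] Wp Q e f) w : Wp Q e f) : V) := by
  rw [extE_apply, pr_self, Submodule.coe_sub, add_sub_cancel]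

theorem pr_left (h : Hyp Q e f) : pr h e = 0 := by
  apply Subtype.ext
  rw [pr_coe, proj, h.pair', h.polar_left, Submodule.coe_zero]
  module

theorem extE_left (h : Hyp Q e f) (g : ↥(E (Qp Q e f))) : ((extE h g : ↥(E Q)) : V ≃ₗ[F] V) e = e := by
  rw [extE_apply, pr_left, map_zero, sub_zero, Submodule.coe_zero, add_zero]

theorem Fund.ext {z : ↥(E (Qp Q e f))} (h : Hyp Q e f) (hz : Fund (Qp Q e f) z) : Fund Q (extE h z) := by
  obtain ⟨e₁, f₁, e₂, f₂, h1, h2, h3, h4, h5, h6, z1, z2, z3, z4, hz⟩ := hz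
  refine ⟨(e₁ : V), (f₁ : V), (e₂ : V), (f₂ : V), ⟨h1.left, h1.right, h1.pair⟩, ⟨h2.left, h2.right, h2.pair⟩, h3, h4,
    h5, h6, by rw [extE_coe, z1]; rfl, by rw [extE_coe, z2]; rfl, by rw [extE_coe, z3]; rfl,
    by rw [extE_coe, z4]; rfl, ?_⟩
  intro v k1 k2 k3 k4
  rw [polar_pr h] at k1 k2 k3 k4
  rw [extE_apply, hz _ k1 k2 k3 k4, sub_self, Submodule.coe_zero, add_zero]

/-- the Levi subgroup normalises the Siegel group -/
theorem extE_normalizes (h : Hyp Q e f) (g : ↥(E (Qp Q e f))) {x : ↥(E Q)} (hx : x ∈ RS Q e h.left) :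
    extE h g * x * (extE h g)⁻¹ ∈ RS Q e h.left := by
  obtain ⟨w, hw, rfl⟩ := hx
  have hu' : Q (((extE h g : ↥(E Q)) : V ≃ₗ[F] V) e) = 0 := by rw [extE_left]; exact h.left
  have hw' : polar Q (((extE h g : ↥(E Q)) : V ≃ₗ[F] V) e) (((extE h g : ↥(E Q)) : V ≃ₗ[F] V) w) = 0 := by
    rw [polar_map (E_le_O (extE h g).2)]; exact hw
  rw [conj_sg (extE h g) h.left hw hu' hw']
  have hw'' : polar Q e (((extE h g : ↥(E Q)) : V ≃ₗ[F] V) w) = 0 := by rwa [extE_left] at hw'
  exact ⟨_, hw'', sg_congr _ _ _ _ (extE_left h g) rfl⟩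

theorem nondeg_Qp (hQ : Nondeg Q) (h : Hyp Q e f) : Nondeg (Qp Q e f) := by
  intro x hx
  apply Subtype.ext
  apply hQ
  intro y
  rw [polar_pr h]
  exact hx _

/-! ### orders -/

theorem finrank_Wp [FiniteDimensional F V] (h : Hyp Q e f) : finrank F (Wp Q e f) + 2 = finrank F V := by
  have h1 := LinearMap.finrank_range_add_finrank_ker ((polarBilin Q e).prod (polarBilin Q f))
  have h2 : LinearMap.range ((polarBilin Q e).prod (polarBilin Q f)) = ⊤ := by
    rw [LinearMap.range_eq_top]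
    rintro ⟨a, b⟩
    refine ⟨b • e + a • f, ?_⟩
    show (polar Q e (b • e + a • f), polar Q f (b • e + a • f)) = (a, b)
    rw [polar_add_right, polar_add_right, polar_smul_right, polar_smul_right, polar_smul_right, polar_smul_right,
      h.polar_left, h.pair, h.polar_right, h.pair']
    simp
  rw [h2, finrank_top, finrank_prod, finrank_self] at h1
  rw [Wp]
  omega

/-- the Siegel group of `e` is `{e, f}ᗮ` -/
noncomputable def eqvRS (h : Hyp Q e f) : Wp Q e f ≃ RS Q e h.left :=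
  Equiv.ofBijective (fun w => ⟨sg Q e w h.left (mem_Wp.1 w.2).1, sg_mem_RS _ _⟩) (by
    constructor
    · intro w w' hww
      have h1 : sg Q e (w : V) h.left (mem_Wp.1 w.2).1 = sg Q e (w' : V) h.left (mem_Wp.1 w'.2).1 :=
        congrArg Subtype.val hww
      have h2 : (sg Q e (w : V) h.left (mem_Wp.1 w.2).1 : V ≃ₗ[F] V) f =
          (sg Q e (w' : V) h.left (mem_Wp.1 w'.2).1 : V ≃ₗ[F] V) f := by rw [h1]
      rw [sg_apply, sg_apply, h.pair, polar_comm Q (w : V) f, (mem_Wp.1 w.2).2, polar_comm Q (w' : V) f,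
        (mem_Wp.1 w'.2).2] at h2
      have h3 := congrArg (proj Q e f) h2
      have h4 : ∀ x : Wp Q e f, proj Q e f (f + (1 : F) • (x : V) - (0 : F) • e - (Q (x : V) * 1) • e) = x := by
        intro x
        simp only [proj, polar_add_right, polar_sub_right, polar_smul_right, h.pair, h.pair', h.polar_left,
          h.polar_right, (mem_Wp.1 x.2).1, (mem_Wp.1 x.2).2, smul_eq_mul]
        module
      rw [h4, h4] at h3
      exact Subtype.ext h3
    · rintro ⟨_, w, hw, rfl⟩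
      refine ⟨pr h w, Subtype.ext ?_⟩
      have h1 : w = proj Q e f w + polar Q f w • e := by
        rw [proj, hw]
        module
      have h2 : polar Q e (proj Q e f w + polar Q f w • e) = 0 := by rw [← h1]; exact hw
      show sg Q e (proj Q e f w) _ _ = sg Q e w _ _
      rw [← sg_add_smul (polar Q f w) h.left (polar_proj_left h w) h2]
      exact sg_congr _ _ _ _ rfl h1.symm)

/-- **the order of the Siegel group** -/
theorem card_RS [Finite F] [FiniteDimensional F V] (h : Hyp Q e f) :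
    Nat.card (RS Q e h.left) = Nat.card F ^ (finrank F V - 2) := by
  have := Fintype.ofFinite F
  have h1 := finrank_Wp h
  rw [← Nat.card_congr (eqvRS h), Module.natCard_eq_pow_finrank (K := F)]
  congr 1
  omega

theorem odd_card_RS [Finite F] [FiniteDimensional F V] (h2 : (2 : F) ≠ 0) (h : Hyp Q e f) :
    Odd (Nat.card (RS Q e h.left)) := by
  have := Fintype.ofFinite F
  rw [card_RS h, Nat.card_eq_fintype_card]
  refine Odd.pow (Nat.odd_iff.2 ?_)
  refine FiniteField.odd_card_of_char_ne_two ?_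
  intro h3
  apply h2
  have h4 : ((ringChar F : ℕ) : F) = 0 := ringChar.Nat.cast_ringChar
  rw [h3] at h4
  exact_mod_cast h4

end Gen

/-- the exponent -/
def psi (M : ℕ) : ℕ := (M - 3) ^ 2 / 4

theorem psi_of_le {M : ℕ} (h : M ≤ 4) : psi M = 0 := by
  unfold psi
  interval_cases M <;> rfl

theorem psi_step {M : ℕ} (h : 5 ≤ M) : psi M = M - 4 + psi (M - 2) := by
  unfold psi
  obtain ⟨m, rfl⟩ : ∃ m, M = m + 5 := ⟨M - 5, by omega⟩
  have e1 : m + 5 - 3 = m + 2 := by omega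
  have e2 : m + 5 - 2 - 3 = m := by omega
  have e3 : m + 5 - 4 = m + 1 := by omega
  rw [e1, e2, e3]
  have e4 : (m + 2) ^ 2 = m ^ 2 + (m + 1) * 4 := by ring
  rw [e4, Nat.add_mul_div_right _ _ (by norm_num)]
  omega

/-- **the input (LR)**: helper989's `exists_sing` -/
def ExSing (F : Type v) [Field F] : Prop :=
  ∀ (V : Type u) [AddCommGroup V] [Module F V] [FiniteDimensional F V] (Q : QuadraticForm F V), Nondeg Q →
    5 ≤ finrank F V → ∀ X : Subgroup ↥(E Q), (∀ z, Fund Q z → z ∉ X) →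
      ∃ (e : V) (he : Q e = 0), e ≠ 0 ∧ Nat.card (X ⊓ RS Q e he : Subgroup ↥(E Q)) ≤ Nat.card F ^ 2

section phi

variable {F : Type v} [Field F] [Finite F] {Γ : Type w} [Group Γ] [Finite Γ]

/-- the fundamental elements and `Z'` -/
def ZZ {V : Type u} [AddCommGroup V] [Module F V] (Q : QuadraticForm F V) (Z' : Set Γ) : Set (↥(E Q) × Γ) :=
  {x | (Fund Q x.1 ∧ x.2 = 1) ∨ (x.1 = 1 ∧ x.2 ∈ Z')}

/-- **the relative PHI, orthogonal groups, `q` odd** -/
theorem phi_of (h2 : (2 : F) ≠ 0) (hex : ExSing.{u, v} F) (Z' : Set Γ) (hZ2 : ∀ z ∈ Z', z * z = 1)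
    (hZc : ∀ g : Γ, ∀ z ∈ Z', g * z * g⁻¹ ∈ Z') (c : ℕ) (hc : ∀ Y : Subgroup Γ, (∀ y ∈ Y, y ∉ Z') → c ≤ Y.index)
    (n : ℕ) : ∀ (V : Type u) [AddCommGroup V] [Module F V] [FiniteDimensional F V] (Q : QuadraticForm F V),
      Nondeg Q → finrank F V = n → ∀ X : Subgroup (↥(E Q) × Γ), (∀ z, Fund Q z → (z, (1 : Γ)) ∉ X) →
      (∀ z ∈ Z', ((1 : ↥(E Q)), z) ∉ X) → Nat.card F ^ psi n * c ≤ X.index := by
  induction n using Nat.strong_induction_on with
  | _ n IH =>
  intro V _ _ _ Q hQ hn X hX hX'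
  have hVf : Finite V := Module.finite_of_finite F
  have hLf : Finite (V ≃ₗ[F] V) := Finite.of_injective _ DFunLike.coe_injective
  rcases Nat.lt_or_ge n 5 with hn5 | hn5
  · rw [psi_of_le (by omega), pow_zero, one_mul]
    have h1 : c ≤ (X.comap (MonoidHom.inr ↥(E Q) Γ)).index := by
      refine hc _ fun y hy hy' => hX' y hy' ?_
      exact hy
    refine h1.trans ?_
    rw [Subgroup.index_comap, ← Subgroup.relIndex_top_right X]
    exact Subgroup.relIndex_le_of_le_right le_top (by rw [Subgroup.relIndex_top_right]; exact Subgroup.index_ne_zero_of_finite)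
  · obtain ⟨e, he, he0, hcard⟩ := hex V Q hQ (by omega) (X.comap (MonoidHom.inl ↥(E Q) Γ)) fun z hz hz' => hX z hz hz'
    obtain ⟨f, hef⟩ := exists_hyp hQ he he0
    have hW := finrank_Wp hef
    have hZ : ∀ g : ↥(E Q) × Γ, ∀ z ∈ ZZ Q Z', g * z * g⁻¹ ∈ ZZ Q Z' := by
      rintro ⟨g, γ⟩ ⟨z, z'⟩ (⟨h3, h4⟩ | ⟨h3, h4⟩)
      · left
        refine ⟨h3.conj g, ?_⟩
        change z' = 1 at h4
        show γ * z' * γ⁻¹ = 1
        rw [h4, mul_one, mul_inv_cancel]
      · right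
        refine ⟨?_, hZc γ z' h4⟩
        change z = 1 at h3
        show g * z * g⁻¹ = 1
        rw [h3, mul_one, mul_inv_cancel]
    have hZ2' : ∀ z ∈ ZZ Q Z', z * z = 1 := by
      rintro ⟨z, z'⟩ (⟨h3, h4⟩ | ⟨h3, h4⟩)
      · change z' = 1 at h4
        exact Prod.ext h3.mul_self (by show z' * z' = 1; rw [h4, mul_one])
      · change z = 1 at h3
        exact Prod.ext (by show z * z = 1; rw [h3, mul_one]) (hZ2 _ h4)
    have hXZ : ∀ z ∈ ZZ Q Z', z ∉ X := by
      rintro ⟨z, z'⟩ (⟨h3, h4⟩ | ⟨h3, h4⟩)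
      · change z' = 1 at h4
        subst h4
        exact hX z h3
      · change z = 1 at h3
        subst h3
        exact hX' z' h4
    have hWf : Finite (Wp Q e f ≃ₗ[F] Wp Q e f) := Finite.of_injective _ DFunLike.coe_injective
    have key := Cfsg.Agent.H847.IF.abs_index ((extE hef).prodMap (MonoidHom.id Γ))
      ((RS Q e hef.left).map (MonoidHom.inl ↥(E Q) Γ)) X (by
        rw [Nat.card_congr ((RS Q e hef.left).equivMapOfInjective _ (by
          intro a b hab
          exact congrArg Prod.fst hab)).symm.toEquiv]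
        exact odd_card_RS h2 hef) (by
        rintro ⟨l, γ⟩ _ ⟨x, hx, rfl⟩
        refine ⟨extE hef l * x * (extE hef l)⁻¹, extE_normalizes hef l hx, ?_⟩
        refine Prod.ext rfl ?_
        show (1 : Γ) = γ * 1 * γ⁻¹
        rw [mul_one, mul_inv_cancel]) (ZZ Q Z') hZ2' hZ hXZ (Nat.card F ^ psi (n - 2) * c) (by
        intro Y hY
        refine IH (n - 2) (by omega) (Wp Q e f) (Qp Q e f) (nondeg_Qp hQ hef) (by omega) Y ?_ ?_
        · intro z hz hzY
          exact hY _ hzY (Or.inl ⟨hz.ext hef, rfl⟩)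
        · intro z hz hzY
          exact hY _ hzY (Or.inr ⟨map_one (extE hef), hz⟩))
    have hQc : Nat.card ((RS Q e hef.left).map (MonoidHom.inl ↥(E Q) Γ)) = Nat.card F ^ (n - 2) := by
      rw [Nat.card_congr ((RS Q e hef.left).equivMapOfInjective _ (by
          intro a b hab
          exact congrArg Prod.fst hab)).symm.toEquiv, card_RS hef, hn]
    have hint : Nat.card (X ⊓ (RS Q e hef.left).map (MonoidHom.inl ↥(E Q) Γ) : Subgroup (↥(E Q) × Γ)) ≤
        Nat.card F ^ 2 := by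
      refine le_trans ?_ hcard
      have h3 : (X ⊓ (RS Q e hef.left).map (MonoidHom.inl ↥(E Q) Γ) : Subgroup (↥(E Q) × Γ)) ≤
          ((X.comap (MonoidHom.inl ↥(E Q) Γ)) ⊓ RS Q e he).map (MonoidHom.inl ↥(E Q) Γ) := by
        rintro _ ⟨h4, x, hx, rfl⟩
        exact ⟨x, ⟨h4, hx⟩, rfl⟩
      refine (Subgroup.card_le_of_le h3).trans ?_
      exact Nat.card_le_card_of_surjective _ (MonoidHom.subgroupMap_surjective _ _)
    rw [hQc] at key
    have h3 := key.trans (Nat.mul_le_mul_right _ hint)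
    rw [psi_step hn5]
    have h4 : n - 2 = 2 + (n - 4) := by omega
    rw [h4, pow_add, mul_assoc] at h3
    have h5 := Nat.le_of_mul_le_mul_left h3 (pow_pos Nat.card_pos 2)
    rw [pow_add]
    have h6 : 2 + (n - 4) = n - 2 := by omega
    rw [h6] at h5
    rw [mul_assoc]
    exact h5

/-- one factor -/
theorem phi_one (h2 : (2 : F) ≠ 0) (hex : ExSing.{u, v} F) {V : Type u} [AddCommGroup V] [Module F V]
    [FiniteDimensional F V] {Q : QuadraticForm F V} (hQ : Nondeg Q) (X : Subgroup ↥(E Q))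
    (hX : ∀ z, Fund Q z → z ∉ X) : Nat.card F ^ psi (finrank F V) ≤ X.index := by
  have hVf : Finite V := Module.finite_of_finite F
  have hLf : Finite (V ≃ₗ[F] V) := Finite.of_injective _ DFunLike.coe_injective
  have h1 := phi_of (Γ := Unit) h2 hex ∅ (fun z hz => hz.elim) (fun _ z hz => hz.elim) 1
    (fun Y _ => Nat.one_le_iff_ne_zero.2 Subgroup.index_ne_zero_of_finite) (finrank F V) V Q hQ rfl
    (X.comap (MonoidHom.fst ↥(E Q) Unit)) (fun z hz hz' => hX z hz hz') (fun z hz => hz.elim)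
  rw [mul_one] at h1
  exact h1.trans (Subgroup.index_comap_of_surjective X Prod.fst_surjective).le

/-- **two factors** -/
theorem phi_prod (h2 : (2 : F) ≠ 0) (hex : ExSing.{u, v} F) {V₁ : Type u} [AddCommGroup V₁] [Module F V₁]
    [FiniteDimensional F V₁] {Q₁ : QuadraticForm F V₁} (hQ₁ : Nondeg Q₁) {V₂ : Type u} [AddCommGroup V₂] [Module F V₂]
    [FiniteDimensional F V₂] {Q₂ : QuadraticForm F V₂} (hQ₂ : Nondeg Q₂) (X : Subgroup (↥(E Q₁) × ↥(E Q₂)))
    (hX₁ : ∀ z, Fund Q₁ z → (z, (1 : ↥(E Q₂))) ∉ X) (hX₂ : ∀ z, Fund Q₂ z → ((1 : ↥(E Q₁)), z) ∉ X) :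
    Nat.card F ^ (psi (finrank F V₁) + psi (finrank F V₂)) ≤ X.index := by
  have hV₂f : Finite V₂ := Module.finite_of_finite F
  have hL₂f : Finite (V₂ ≃ₗ[F] V₂) := Finite.of_injective _ DFunLike.coe_injective
  have h1 := phi_of h2 hex {z | Fund Q₂ z} (fun z hz => Fund.mul_self hz) (fun g z hz => Fund.conj hz g)
    (Nat.card F ^ psi (finrank F V₂)) (fun Y hY => phi_one h2 hex hQ₂ Y fun z hz hz' => hY z hz' hz) (finrank F V₁)
    V₁ Q₁ hQ₁ rfl X hX₁ hX₂
  rwa [← pow_add] at h1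

end phi

end Cfsg.Agent.H274.IF
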