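import Cfsg.Agent.H274.IF.UFourAbs

/-!
# S5719 (involution fixity), `U₄(3)` (helper274)

**`three`** : `KillE (PSU 4 F 3)`, from the permutation model of helper926 and `killE_abs`.
-/

set_option autoImplicit false
set_option maxRecDepth 10000
set_option linter.unusedSectionVars false
set_option linter.unusedVariables false

namespace Cfsg.Agent.H274.IF.UFour

open Subgroup Cfsg Cfsg.Agent.LargeExtra.W2.CM Cfsg.Agent.LargeExtra.W2.U43 Cfsg.Agent.LargeExtra.W2.U43.PermModel
  Cfsg.Agent.LargeExtra.W2.U43.Ident Cfsg.Agent.H209.Fxy Cfsg.Agent.SporadicRecognition.CosetCert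
  Cfsg.Agent.SporadicRecognition.CosetCertHyp Cfsg.Agent.SporadicStructure.FieldNine
  Cfsg.Agent.LargeExtra.W2.U43.ExistsD

/-- the group generated by the letters -/
def MM : Subgroup (Equiv.Perm (Fin 280)) := closure (P '' {x | x < 12})

/-- the subgroup of order 1152 -/
def H0 : Subgroup (Equiv.Perm (Fin 280)) := closure {P 0, P 13, P 15, P 17, P 3, P 19, P 5, P 7}

theorem card_MM_le : Nat.card MM ≤ 2835 * Nat.card H0 := by
  obtain ⟨hf, -⟩ := card_closure_rules rules_P
  have m0 : P 0 ∈ H0 := subset_closure (by simp)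
  have hyp : Hyp CertData.C H0 P := by
    apply hyp_of_checks H0 P CertData.C CertData.rels CertData.subw
    · exact P12
    · intro x hx
      exact inv_P x hx
    · intro r hr
      exact rels_P r hr
    · have h1 : ∀ a : ℕ, P a ∈ H0 → ev P [a] ∈ H0 := by
        intro a ha
        rw [ev_cons, ev_nil, mul_one]
        exact ha
      simp only [CertData.subw, List.forall_mem_cons]
      refine ⟨h1 _ m0, h1 _ (subset_closure (by simp)), h1 _ (subset_closure (by simp)),
        h1 _ (subset_closure (by simp)), h1 _ ?_, fun _ h => absurd h (by simp)⟩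
      rw [← rules_P.ii]
      exact mul_mem m0 m0
    · decide +kernel
  have : Finite H0 := hf
  exact (card_closure_le CertData.C H0 P hyp CertAll.part).2

theorem card_H0_le : Nat.card H0 ≤ 1152 := (card_closure_rules rules_P).2

theorem M_le : M ≤ MM := range_le

theorem card_MM : Nat.card MM = 3265920 := by
  have h1 : Nat.card MM ≤ 2835 * 1152 := card_MM_le.trans (Nat.mul_le_mul_left _ card_H0_le)
  have h2 : 3265920 ≤ Nat.card M := SporadicStructure.U43Perm.card_ge
  have h3 : Nat.card M ≤ Nat.card MM := card_le_of_le M_le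
  omega

theorem M_eq : M = MM := by
  refine eq_of_le_of_card_ge M_le ?_
  have h2 : 3265920 ≤ Nat.card M := SporadicStructure.U43Perm.card_ge
  rw [card_MM]
  exact h2

theorem card_H0 : Nat.card H0 = 1152 := by
  have h1 := card_MM_le
  rw [card_MM] at h1
  have h2 := card_H0_le
  omega

/-! ### the elements -/

theorem mem_lt (n : ℕ) (h : n < 12) : P n ∈ MM := subset_closure ⟨n, h, rfl⟩

theorem mem13 : P 13 ∈ MM := by
  rw [j_P]
  exact mul_mem (mem_lt 3 (by norm_num)) (mul_mem (mem_lt 0 (by norm_num)) (mem_lt 4 (by norm_num)))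
theorem mem15 : P 15 ∈ MM := by
  rw [k_P]
  exact mul_mem (mem_lt 7 (by norm_num)) (mul_mem (mem_lt 0 (by norm_num)) (mem_lt 7 (by norm_num)))
theorem mem17 : P 17 ∈ MM := by
  rw [l_P]
  exact mul_mem (mem_lt 7 (by norm_num)) (mul_mem mem13 (mem_lt 7 (by norm_num)))
theorem mem19 : P 19 ∈ MM := by
  rw [w_P]
  exact mul_mem (mem_lt 7 (by norm_num)) (mul_mem (mem_lt 3 (by norm_num)) (mem_lt 7 (by norm_num)))
theorem mem14 : P 14 ∈ MM := by
  have h : P 14 = P 3 * (P 1 * P 4) := pr_of_eqW (l := [14]) (l' := [3, 1, 4]) (by decide +kernel)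
  rw [h]
  exact mul_mem (mem_lt 3 (by norm_num)) (mul_mem (mem_lt 1 (by norm_num)) (mem_lt 4 (by norm_num)))

noncomputable def gz : MM := ⟨P 2, mem_lt 2 (by norm_num)⟩
noncomputable def gi : MM := ⟨P 0, mem_lt 0 (by norm_num)⟩
noncomputable def gj : MM := ⟨P 13, mem13⟩
noncomputable def gk : MM := ⟨P 15, mem15⟩
noncomputable def gl : MM := ⟨P 17, mem17⟩
noncomputable def gx : MM := ⟨P 3, mem_lt 3 (by norm_num)⟩
noncomputable def gw : MM := ⟨P 19, mem19⟩
noncomputable def gy : MM := ⟨P 5, mem_lt 5 (by norm_num)⟩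
noncomputable def gs : MM := ⟨P 7, mem_lt 7 (by norm_num)⟩

theorem rules_g : Rules true false true gz gi gj gk gl gx gw gy gs where
  zz := Subtype.ext rules_P.zz
  zi := Subtype.ext rules_P.zi
  zj := Subtype.ext rules_P.zj
  zk := Subtype.ext rules_P.zk
  zl := Subtype.ext rules_P.zl
  zx := Subtype.ext rules_P.zx
  zw := Subtype.ext rules_P.zw
  zy := Subtype.ext rules_P.zy
  zs := Subtype.ext rules_P.zs
  ii := Subtype.ext rules_P.ii
  jj := Subtype.ext rules_P.jj
  kk := Subtype.ext rules_P.kk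
  ll := Subtype.ext rules_P.ll
  ji := Subtype.ext rules_P.ji
  lk := Subtype.ext rules_P.lk
  ki := Subtype.ext rules_P.ki
  li := Subtype.ext rules_P.li
  kj := Subtype.ext rules_P.kj
  lj := Subtype.ext rules_P.lj
  xi := Subtype.ext rules_P.xi
  xj := Subtype.ext rules_P.xj
  xk := Subtype.ext rules_P.xk
  xl := Subtype.ext rules_P.xl
  wi := Subtype.ext rules_P.wi
  wj := Subtype.ext rules_P.wj
  wk := Subtype.ext rules_P.wk
  wl := Subtype.ext rules_P.wl
  yi := Subtype.ext rules_P.yi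
  yj := Subtype.ext rules_P.yj
  yk := Subtype.ext rules_P.yk
  yl := Subtype.ext rules_P.yl
  si := Subtype.ext rules_P.si
  sj := Subtype.ext rules_P.sj
  sk := Subtype.ext rules_P.sk
  sl := Subtype.ext rules_P.sl
  wx := Subtype.ext rules_P.wx
  xxx := Subtype.ext rules_P.xxx
  www := Subtype.ext rules_P.www
  yx := Subtype.ext rules_P.yx
  yw := Subtype.ext rules_P.yw
  sx := Subtype.ext rules_P.sx
  sw := Subtype.ext rules_P.sw
  sy := Subtype.ext rules_P.sy
  yy := Subtype.ext rules_P.yy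
  ss := Subtype.ext rules_P.ss

theorem pw_coe (b : Bool) (g : MM) : ((pw b g : MM) : Equiv.Perm (Fin 280)) = pw b (g : Equiv.Perm (Fin 280)) := by
  cases b <;> rfl

theorem pw3_coe (m : C3) (g : MM) : ((pw3 m g : MM) : Equiv.Perm (Fin 280)) = pw3 m (g : Equiv.Perm (Fin 280)) := by
  cases m <;> rfl

theorem ev_coe (t : T) : ((t.ev gz gi gj gk gl gx gw gy gs : MM) : Equiv.Perm (Fin 280)) =
    t.ev (P 2) (P 0) (P 13) (P 15) (P 17) (P 3) (P 19) (P 5) (P 7) := by
  simp only [T.ev, Qt.ev, Subgroup.coe_mul, pw_coe, pw3_coe]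
  rfl

/-- the elements of the model are distinct -/
theorem inj_P : Function.Injective
    fun t : T => t.ev (P 2) (P 0) (P 13) (P 15) (P 17) (P 3) (P 19) (P 5) (P 7) := by
  have hle : H0 ≤ nf rules_P := by
    rw [H0, closure_le]
    rintro c (rfl | rfl | rfl | rfl | rfl | rfl | rfl | rfl)
    · exact ⟨ti, ev_i⟩
    · exact ⟨tj, ev_j⟩
    · exact ⟨tk, ev_k⟩
    · exact ⟨tl, ev_l⟩
    · exact ⟨tx₁, ev_x₁⟩
    · exact ⟨tx₂, ev_x₂⟩
    · exact ⟨ty, ev_y⟩
    · exact ⟨ts, ev_s⟩
  have h1 : 1152 ≤ Nat.card (nf rules_P) := by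
    rw [← card_H0]
    exact card_le_of_le hle
  have hT : Finite T := Nat.finite_of_card_ne_zero (by rw [card_T]; norm_num)
  let f : T → nf rules_P := fun t => ⟨t.ev (P 2) (P 0) (P 13) (P 15) (P 17) (P 3) (P 19) (P 5) (P 7), t, rfl⟩
  have hs : Function.Surjective f := by
    rintro ⟨_, t, rfl⟩
    exact ⟨t, rfl⟩
  have hb : Function.Bijective f := by
    rw [Nat.bijective_iff_surjective_and_card]
    refine ⟨hs, ?_⟩
    rw [card_T]
    exact le_antisymm h1 (by rw [← card_T]; exact Nat.card_le_card_of_surjective _ hs)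
  intro a b hab
  exact hb.1 (Subtype.ext hab)

theorem inj_g : Function.Injective fun t : T => t.ev gz gi gj gk gl gx gw gy gs := by
  intro a b hab
  apply inj_P
  show a.ev _ _ _ _ _ _ _ _ _ = b.ev _ _ _ _ _ _ _ _ _
  rw [← ev_coe, ← ev_coe]
  exact congrArg Subtype.val hab

theorem conj_s : IsConj gz gs := by
  refine isConj_iff.2 ⟨⟨P 8, mem_lt 8 (by norm_num)⟩, ?_⟩
  rw [mul_inv_eq_iff_eq_mul]
  apply Subtype.ext
  exact pr_of_eqW (l := [8, 2]) (l' := [7, 8]) (by decide +kernel)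

theorem conj_ys : IsConj gz (gy * gs) := by
  refine isConj_iff.2 ⟨⟨P 10, mem_lt 10 (by norm_num)⟩, ?_⟩
  rw [mul_inv_eq_iff_eq_mul, mul_assoc]
  apply Subtype.ext
  exact pr_of_eqW (l := [10, 2]) (l' := [5, 7, 10]) (by decide +kernel)

theorem conj_ik : IsConj gz (gi * gk) := by
  refine isConj_iff.2 ⟨⟨P 14, mem14⟩ * (⟨P 9, mem_lt 9 (by norm_num)⟩ * (⟨P 0, mem_lt 0 (by norm_num)⟩ *
    (⟨P 8, mem_lt 8 (by norm_num)⟩ * ⟨P 8, mem_lt 8 (by norm_num)⟩))), ?_⟩
  rw [mul_inv_eq_iff_eq_mul]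
  simp only [mul_assoc]
  apply Subtype.ext
  exact pr_of_eqW (l := [14, 9, 0, 8, 8, 2]) (l' := [0, 15, 14, 9, 0, 8, 8]) (by decide +kernel)

theorem simple_MM : IsSimpleGroup MM := by
  rw [← M_eq]
  exact simple_M

theorem killE_MM : KillE MM :=
  have := simple_MM
  killE_abs card_MM rules_g inj_g conj_s conj_ys conj_ik

theorem killE_congr {T T' : Type*} [Group T] [Group T'] (e : T ≃* T') (h : KillE T) : KillE T' := by
  rintro A Γ hA ⟨t, ht, ho⟩
  refine h _ _ (hA.map e.symm) ⟨e.symm t, ⟨t, ht, rfl⟩, ?_⟩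
  rw [← ho]
  exact MulEquiv.orderOf_eq e.symm t

/-- **W8**: `U₄(3)` -/
theorem three {F : Type*} [Field F] [Fintype F] (hF : Fintype.card F = 3 ^ 2) [IsSimpleGroup (PSU 4 F 3)] :
    KillE (PSU 4 F 3) := by
  obtain ⟨e⟩ := psu_iso
  obtain ⟨e'⟩ := SporadicStructure.PsuMatch.psu_iso_of_card (F := F) (K := K9)
    (hF.trans (by rw [K9.card_K9]; norm_num)) 4 3
  rw [M_eq] at e
  exact killE_congr (e'.trans e).symm killE_MM

end Cfsg.Agent.H274.IF.UFour
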