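import Cfsg.Agent.H999.IF.EngB
import Cfsg.Agent.H209.IF.Kill
import Cfsg.Agent.LargeExtra.W2.U43.Ident
import Cfsg.Agent.LargeExtra.W2.U43.InvClass

/-!
# S5719 (involution fixity), `U₄(3)`, the abstract part (helper274)

A simple group of order `|U₄(3)|` with elements satisfying `Rules` (helper893), `z ~ s ~ y s ~ i k`, has no counterexample
with `|A|` even (`killE_abs`).
-/

set_option autoImplicit false
set_option linter.unusedSectionVars false
set_option linter.unusedVariables false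

namespace Cfsg.Agent.H274.IF.UFour

open Subgroup MulAction Cfsg.Agent.LargeExtra.W2.CM Cfsg.Agent.LargeExtra.W2.U43 Cfsg.Agent.LargeExtra.W2.U43.InvClass
  Cfsg.Agent.LargeExtra.W2.U43.ExistsD Cfsg.Agent.LargeExtra.W2.U43.Ident Cfsg.Agent.H209.Fxy Cfsg.Agent.H999.IFB
open scoped commutatorElement

/-! ### a law of `S₃` -/

theorem law3 : ∀ a b c d : Equiv.Perm (Fin 3), ⁅⁅a, b⁆, ⁅c, d⁆⁆ = 1 := by
  have h1 : ∀ a b : Equiv.Perm (Fin 3), ⁅a, b⁆ = 1 ∨ ⁅a, b⁆ = finRotate 3 ∨ ⁅a, b⁆ = (finRotate 3)⁻¹ := by decide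
  have h2 : ⁅(finRotate 3), (finRotate 3)⁻¹⁆ = 1 := by decide
  intro a b c d
  rcases h1 a b with h | h | h <;> rcases h1 c d with h' | h' | h' <;> rw [h, h'] <;> decide

/-- a subgroup of index at most three contains `⁅⁅a, b⁆, ⁅c, d⁆⁆` -/
theorem mem_of_index_le_three {H : Type*} [Group H] [Finite H] (D : Subgroup H) (hD : D.index ≤ 3) (a b c d : H) :
    ⁅⁅a, b⁆, ⁅c, d⁆⁆ ∈ D := by
  classical
  have hf : Finite (H ⧸ D) := inferInstance
  have := Fintype.ofFinite (H ⧸ D)
  have hc : Fintype.card (H ⧸ D) ≤ Fintype.card (Fin 3) := by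
    rw [Fintype.card_fin, ← Nat.card_eq_fintype_card]
    exact hD
  obtain ⟨ι⟩ := Function.Embedding.nonempty_of_card_le hc
  let φ : H →* Equiv.Perm (Fin 3) := (Equiv.Perm.viaEmbeddingHom ι).comp (MulAction.toPermHom H (H ⧸ D))
  have h1 : φ ⁅⁅a, b⁆, ⁅c, d⁆⁆ = 1 := by
    rw [map_commutatorElement, map_commutatorElement, map_commutatorElement]
    exact law3 _ _ _ _
  have h2 : MulAction.toPermHom H (H ⧸ D) ⁅⁅a, b⁆, ⁅c, d⁆⁆ = 1 := by
    apply Equiv.Perm.viaEmbeddingHom_injective ι
    rw [map_one]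
    exact h1
  have h3 : ⁅⁅a, b⁆, ⁅c, d⁆⁆ • ((1 : H) : H ⧸ D) = ((1 : H) : H ⧸ D) := by
    have := congrArg (fun σ : Equiv.Perm (H ⧸ D) => σ ((1 : H) : H ⧸ D)) h2
    exact this
  have h4 : ((⁅⁅a, b⁆, ⁅c, d⁆⁆ * 1 : H) : H ⧸ D) = ((1 : H) : H ⧸ D) := h3
  rw [mul_one, QuotientGroup.eq, mul_one] at h4
  exact (D.inv_mem_iff).1 h4

section

variable {G : Type*} [Group G] {z i j k l x₁ x₂ y s : G}

theorem eq_comm_i (R : Rules true false true z i j k l x₁ x₂ y s) : ⁅⁅y, x₁⁆, ⁅x₁, i * j⁆⁆ = i := by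
  have h1 : ⁅y, x₁⁆ = x₁ := by
    rw [commutatorElement_def, mul_inv_eq_iff_eq_mul, mul_inv_eq_iff_eq_mul]
    coll R
  have h2 : ⁅x₁, i * j⁆ = j := by
    rw [commutatorElement_def, mul_inv_eq_iff_eq_mul, mul_inv_eq_iff_eq_mul]
    coll R
  rw [h1, h2, commutatorElement_def, mul_inv_eq_iff_eq_mul, mul_inv_eq_iff_eq_mul]
  coll R

theorem eq_comm_j (R : Rules true false true z i j k l x₁ x₂ y s) : ⁅⁅y, x₁⁆, ⁅x₁, i⁆⁆ = j := by
  have h1 : ⁅y, x₁⁆ = x₁ := by
    rw [commutatorElement_def, mul_inv_eq_iff_eq_mul, mul_inv_eq_iff_eq_mul]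
    coll R
  have h2 : ⁅x₁, i⁆ = i * j := by
    rw [commutatorElement_def, mul_inv_eq_iff_eq_mul, mul_inv_eq_iff_eq_mul]
    coll R
  rw [h1, h2, commutatorElement_def, mul_inv_eq_iff_eq_mul, mul_inv_eq_iff_eq_mul]
  coll R

theorem eq_comm_k (R : Rules true false true z i j k l x₁ x₂ y s) : ⁅⁅y, x₂⁆, ⁅x₂, k * l⁆⁆ = k := by
  have h1 : ⁅y, x₂⁆ = x₂ := by
    rw [commutatorElement_def, mul_inv_eq_iff_eq_mul, mul_inv_eq_iff_eq_mul]
    coll R
  have h2 : ⁅x₂, k * l⁆ = l := by
    rw [commutatorElement_def, mul_inv_eq_iff_eq_mul, mul_inv_eq_iff_eq_mul]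
    coll R
  rw [h1, h2, commutatorElement_def, mul_inv_eq_iff_eq_mul, mul_inv_eq_iff_eq_mul]
  coll R

theorem eq_comm_l (R : Rules true false true z i j k l x₁ x₂ y s) : ⁅⁅y, x₂⁆, ⁅x₂, k⁆⁆ = l := by
  have h1 : ⁅y, x₂⁆ = x₂ := by
    rw [commutatorElement_def, mul_inv_eq_iff_eq_mul, mul_inv_eq_iff_eq_mul]
    coll R
  have h2 : ⁅x₂, k⁆ = k * l := by
    rw [commutatorElement_def, mul_inv_eq_iff_eq_mul, mul_inv_eq_iff_eq_mul]
    coll R
  rw [h1, h2, commutatorElement_def, mul_inv_eq_iff_eq_mul, mul_inv_eq_iff_eq_mul]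
  coll R

end

/-! ### the subgroup of order 1152 -/

section

variable {G : Type*} [Group G] [Finite G] {z i j k l x₁ x₂ y s : G}

theorem card_nf_eq (R : Rules true false true z i j k l x₁ x₂ y s)
    (inj : Function.Injective fun t : T => t.ev z i j k l x₁ x₂ y s) : Nat.card (nf R) = 1152 := by
  rw [← card_T]
  exact (Nat.card_congr (Equiv.ofInjective _ inj)).symm

theorem nf_le (R : Rules true false true z i j k l x₁ x₂ y s) : nf R ≤ centralizer ({z} : Set G) := by
  rintro _ ⟨t, rfl⟩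
  exact mem_centralizer_singleton_iff.2 (ev_comm R t)

theorem index_nf (hcard : Nat.card G = 3265920) (R : Rules true false true z i j k l x₁ x₂ y s)
    (inj : Function.Injective fun t : T => t.ev z i j k l x₁ x₂ y s) : (nf R).index = 2835 := by
  have h1 := (nf R).index_mul_card
  rw [card_nf_eq R inj, hcard] at h1
  omega

theorem z_ne (R : Rules true false true z i j k l x₁ x₂ y s)
    (inj : Function.Injective fun t : T => t.ev z i j k l x₁ x₂ y s) : z ≠ 1 := by
  intro h
  have h1 : tz = T.one := inj (by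
    show tz.ev z i j k l x₁ x₂ y s = T.one.ev z i j k l x₁ x₂ y s
    rw [ev_z, ev_one, h])
  exact absurd (T.beq_iff.2 h1) (by decide +kernel)

/-- the classes of involutions of `nf R` -/
theorem inv_nf (R : Rules true false true z i j k l x₁ x₂ y s)
    (inj : Function.Injective fun t : T => t.ev z i j k l x₁ x₂ y s) (h1 : IsConj z s) (h2 : IsConj z (y * s))
    (h3 : IsConj z (i * k)) {u : G} (hu : u ∈ nf R) (u2 : u * u = 1) (u1 : u ≠ 1) : IsConj z u := by
  set EV : T → G := fun t => t.ev z i j k l x₁ x₂ y s with hEV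
  have emul : ∀ t u, EV t * EV u = EV (mu t u) := fun t u => ev_mul R t u
  have e1 : EV T.one = 1 := ev_one
  have ez : EV tz = z := ev_z
  have es : EV ts = s := ev_s
  have eik : EV tik = i * k := by rw [tik, ← emul]; simp only [hEV, ev_i, ev_k]
  have eys : EV tys = y * s := by rw [tys, ← emul]; simp only [hEV, ev_y, ev_s]
  obtain ⟨t, rfl⟩ := hu
  change EV t * EV t = 1 at u2
  change EV t ≠ 1 at u1
  change IsConj z (EV t)
  have h4 : mu t t = T.one := by
    apply inj
    show EV (mu t t) = EV T.one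
    rw [← emul, u2, e1]
  have h5 : t ≠ T.one := by
    rintro rfl
    exact u1 e1
  have h6 := allT_spec fact t
  simp only [chk, Bool.or_eq_true, Bool.not_eq_true'] at h6
  rcases h6 with h6 | h6 | h6
  · rw [← Bool.not_eq_true, T.beq_iff] at h6
    exact absurd h4 h6
  · exact absurd (T.eq_of_beq h6) h5
  · obtain ⟨c, -, hc⟩ := anyL_mem h6
    obtain ⟨r, hr, hc⟩ := anyL_mem hc
    have hc := T.eq_of_beq hc
    have h7 : EV c * EV t = EV r * EV c := by rw [emul, hc, ← emul]
    have h8 : IsConj (EV t) (EV r) := isConj_iff.2 ⟨EV c, by rw [h7]; group⟩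
    simp only [List.mem_cons, List.not_mem_nil, or_false] at hr
    refine IsConj.trans ?_ h8.symm
    rcases hr with rfl | rfl | rfl | rfl
    · rw [ez]
    · rw [eik]; exact h3
    · rw [es]; exact h1
    · rw [eys]; exact h2

/-- **one class of involutions** -/
theorem one_class (hcard : Nat.card G = 3265920) (R : Rules true false true z i j k l x₁ x₂ y s)
    (inj : Function.Injective fun t : T => t.ev z i j k l x₁ x₂ y s) (h1 : IsConj z s) (h2 : IsConj z (y * s))
    (h3 : IsConj z (i * k)) {u : G} (u2 : u * u = 1) (u1 : u ≠ 1) : IsConj z u := by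
  have : Fact (Nat.Prime 2) := ⟨Nat.prime_two⟩
  obtain ⟨P⟩ : Nonempty (Sylow 2 (nf R)) := inferInstance
  have hPc : Nat.card P = 2 ^ 7 := by
    rw [Sylow.card_eq_multiplicity, card_nf_eq R inj]
    have : (1152 : ℕ).factorization 2 = 7 := by
      have : (1152 : ℕ) = 2 ^ 7 * 9 := by norm_num
      rw [this, Nat.factorization_mul (by norm_num) (by norm_num), Nat.Prime.factorization_pow Nat.prime_two]
      simp [Nat.factorization_eq_zero_of_not_dvd]
    rw [this]
  let P' : Subgroup G := (P : Subgroup (nf R)).map (nf R).subtype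
  have hP'c : Nat.card P' = 2 ^ (Nat.card G).factorization 2 := by
    have h4 : Nat.card P' = Nat.card P :=
      Nat.card_congr ((P : Subgroup (nf R)).equivMapOfInjective _ (nf R).subtype_injective).toEquiv.symm
    rw [h4, hPc, hcard]
    have : (3265920 : ℕ).factorization 2 = 7 := by
      have : (3265920 : ℕ) = 2 ^ 7 * 25515 := by norm_num
      rw [this, Nat.factorization_mul (by norm_num) (by norm_num), Nat.Prime.factorization_pow Nat.prime_two]
      simp [Nat.factorization_eq_zero_of_not_dvd]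
    rw [this]
  let S : Sylow 2 G := Sylow.ofCard P' hP'c
  have ho : orderOf u = 2 := orderOf_eq_prime (by rw [pow_two, u2]) u1
  have hx' : IsPGroup 2 (Subgroup.zpowers u) := by
    apply IsPGroup.of_card (n := 1)
    rw [Nat.card_zpowers, ho, pow_one]
  obtain ⟨S', hS'⟩ := hx'.exists_le_sylow
  obtain ⟨g, hg⟩ := MulAction.exists_smul_eq G S' S
  have hxS : u ∈ (S' : Subgroup G) := hS' (Subgroup.mem_zpowers _)
  have hgx : g * u * g⁻¹ ∈ (S : Subgroup G) := by
    rw [← hg]
    exact Subgroup.mem_map.2 ⟨u, hxS, rfl⟩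
  obtain ⟨c, hc, hcg⟩ := Subgroup.mem_map.1 hgx
  have hc' : (c : G) = g * u * g⁻¹ := hcg
  have h4 := inv_nf R inj h1 h2 h3 (u := g * u * g⁻¹) (by rw [← hc']; exact c.2)
    (by
      calc g * u * g⁻¹ * (g * u * g⁻¹) = g * (u * u) * g⁻¹ := by group
        _ = 1 := by rw [u2]; group)
    (by
      intro h'
      apply u1
      calc u = g⁻¹ * (g * u * g⁻¹) * g := by group
        _ = 1 := by rw [h']; group)
  exact h4.trans (isConj_iff.2 ⟨g, rfl⟩).symm

/-- `nf R ∩ A` of index at most three: `A` contains the extraspecial group -/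
theorem ev_mem_of_le_three (R : Rules true false true z i j k l x₁ x₂ y s) {A : Subgroup G}
    (hA : A.relIndex (nf R) ≤ 3) : z ∈ A ∧ i ∈ A ∧ j ∈ A ∧ k ∈ A ∧ l ∈ A := by
  have mi : i ∈ nf R := ⟨ti, ev_i⟩
  have mj : j ∈ nf R := ⟨tj, ev_j⟩
  have mk : k ∈ nf R := ⟨tk, ev_k⟩
  have ml : l ∈ nf R := ⟨tl, ev_l⟩
  have mx : x₁ ∈ nf R := ⟨tx₁, ev_x₁⟩
  have mw : x₂ ∈ nf R := ⟨tx₂, ev_x₂⟩
  have my : y ∈ nf R := ⟨ty, ev_y⟩
  have key : ∀ {a b c d : G} (ha : a ∈ nf R) (hb : b ∈ nf R) (hc : c ∈ nf R) (hd : d ∈ nf R),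
      ⁅⁅a, b⁆, ⁅c, d⁆⁆ ∈ A := by
    intro a b c d ha hb hc hd
    have h1 := mem_of_index_le_three (A.subgroupOf (nf R)) hA ⟨a, ha⟩ ⟨b, hb⟩ ⟨c, hc⟩ ⟨d, hd⟩
    exact h1
  have hi : i ∈ A := by
    have := key my mx mx (mul_mem mi mj)
    rwa [eq_comm_i R] at this
  have hj : j ∈ A := by
    have := key my mx mx mi
    rwa [eq_comm_j R] at this
  have hk : k ∈ A := by
    have := key my mw mw (mul_mem mk ml)
    rwa [eq_comm_k R] at this
  have hl : l ∈ A := by
    have := key my mw mw mk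
    rwa [eq_comm_l R] at this
  refine ⟨?_, hi, hj, hk, hl⟩
  rw [← R.ii]
  exact mul_mem hi hi

/-- the 18 noncentral involutions of the extraspecial group -/
def good (p : Bool × Bool × Bool × Bool × Bool) : Bool := (p.2.1 || p.2.2.1) && (p.2.2.2.1 || p.2.2.2.2)

def toT (p : Bool × Bool × Bool × Bool × Bool) : T := ⟨⟨p.1, p.2.1, p.2.2.1, p.2.2.2.1, p.2.2.2.2⟩, C3.o, C3.o, false, false⟩

theorem toT_injective : Function.Injective toT := by
  rintro ⟨a, b, c, d, e⟩ ⟨a', b', c', d', e'⟩ h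
  simp only [toT, T.mk.injEq, Qt.mk.injEq] at h
  obtain ⟨⟨rfl, rfl, rfl, rfl, rfl⟩, -⟩ := h
  rfl

theorem card_good : Nat.card {p : Bool × Bool × Bool × Bool × Bool // good p = true} = 18 := by
  rw [Nat.card_eq_fintype_card]
  decide +kernel

theorem toT_sq : ∀ p, good p = true → mu (toT p) (toT p) = T.one := by
  rintro ⟨a, b, c, d, e⟩ h
  revert h
  cases a <;> cases b <;> cases c <;> cases d <;> cases e <;> first | (intro; rfl) | (intro h; exact absurd h (by decide))

theorem toT_ne : ∀ p, good p = true → toT p ≠ T.one := by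
  rintro ⟨a, b, c, d, e⟩ h h1
  simp only [toT, T.one, T.mk.injEq, Qt.mk.injEq] at h1
  obtain ⟨⟨rfl, rfl, rfl, rfl, rfl⟩, -⟩ := h1
  exact absurd h (by decide)

/-- at least 18 involutions -/
theorem eighteen (R : Rules true false true z i j k l x₁ x₂ y s)
    (inj : Function.Injective fun t : T => t.ev z i j k l x₁ x₂ y s) {A : Subgroup G}
    (hA : z ∈ A ∧ i ∈ A ∧ j ∈ A ∧ k ∈ A ∧ l ∈ A) : 18 ≤ {a : G | a ∈ A ∧ a * a = 1 ∧ a ≠ 1}.ncard := by
  rw [← card_good, ← Nat.card_coe_set_eq]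
  have pwm : ∀ (b : Bool) {g : G}, g ∈ A → pw b g ∈ A := by
    intro b g hg
    cases b
    · exact one_mem A
    · exact hg
  refine Nat.card_le_card_of_injective (fun p : {p : Bool × Bool × Bool × Bool × Bool // good p = true} =>
    (⟨(toT p.1).ev z i j k l x₁ x₂ y s, ?_, ?_, ?_⟩ : {a : G | a ∈ A ∧ a * a = 1 ∧ a ≠ 1})) ?_
  · obtain ⟨⟨a, b, c, d, e⟩, hp⟩ := p
    show (pw a z * (pw b i * (pw c j * (pw d k * pw e l)))) * (1 * (1 * (1 * 1))) ∈ A
    simp only [mul_one]
    exact mul_mem (pwm _ hA.1) (mul_mem (pwm _ hA.2.1) (mul_mem (pwm _ hA.2.2.1)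
      (mul_mem (pwm _ hA.2.2.2.1) (pwm _ hA.2.2.2.2))))
  · rw [ev_mul R]
    have h1 := toT_sq p.1 p.2
    rw [show T.mul true false true (toT p.1) (toT p.1) = T.one from h1, ev_one]
  · intro h1
    exact toT_ne p.1 p.2 (inj (h1.trans (ev_one (z := z) (i := i) (j := j) (k := k) (l := l) (x₁ := x₁) (x₂ := x₂)
      (y := y) (s := s)).symm))
  · intro p p' h
    exact Subtype.ext (toT_injective (inj (congrArg Subtype.val h)))

theorem not_comm (R : Rules true false true z i j k l x₁ x₂ y s)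
    (inj : Function.Injective fun t : T => t.ev z i j k l x₁ x₂ y s) : ∃ a b : G, a * b ≠ b * a := by
  refine ⟨j, i, fun h => z_ne R inj ?_⟩
  rw [R.ji] at h
  exact mul_eq_right.1 h

theorem conj_injective [IsSimpleGroup G] (hna : ∃ a b : G, a * b ≠ b * a) :
    Function.Injective (MulAut.conj : G → MulAut G) := by
  have h1 : Function.Injective (MulAut.conj : G →* MulAut G) := by
    rw [injective_iff_map_eq_one]
    intro z hz
    apply center_of hna
    intro x
    have h3 := congrArg (fun τ : MulAut G => τ x) hz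
    simp only [MulAut.conj_apply, MulAut.one_apply] at h3
    rwa [mul_inv_eq_iff_eq_mul] at h3
  exact h1

/-- **the main argument** -/
theorem kill_aux [IsSimpleGroup G] (hcard : Nat.card G = 3265920) (R : Rules true false true z i j k l x₁ x₂ y s)
    (inj : Function.Injective fun t : T => t.ev z i j k l x₁ x₂ y s) (h1 : IsConj z s) (h2 : IsConj z (y * s))
    (h3 : IsConj z (i * k)) {A : Subgroup G} {Γ : Subgroup (MulAut G)} (h : IF A Γ) (hz : z ∈ A) : False := by
  have hna := not_comm R inj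
  have hz1 := z_ne R inj
  have oz : orderOf z = 2 := orderOf_eq_prime (by rw [pow_two, R.zz]) hz1
  obtain ⟨a1, a2, a3, -, -⟩ := IF.E2' h hna hz oz
  have hσ : MulAut.conj z ∈ Γ := (h.conj z).2 hz
  have hN : (centralizer ({z} : Set G)).index ≤ 2835 := by
    rw [← index_nf hcard R inj]
    exact Nat.le_of_dvd (Nat.pos_of_ne_zero index_ne_zero_of_finite) (index_dvd_of_le (nf_le R))
  have hE1 : A.relIndex (nf R) ≤ fx A (MulAut.conj z) := (IF.E1 h hσ a1 (B := nf R) (fun b hb => by
    have h4 := mem_centralizer_singleton_iff.1 (nf_le R hb)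
    rw [MulAut.conj_apply, mul_inv_eq_iff_eq_mul, h4])).1
  have hff := IF.fix_formula' h hσ
  rw [a2] at hff
  have hsm := h.small _ hσ a1
  have hbig := h.big
  set f := fx A (MulAut.conj z) with hf
  set n := A.index with hn
  set N := (centralizer ({z} : Set G)).index with hN'
  set κ := (icl (MulAut.conj z) ∩ (Γ : Set (MulAut G))).ncard with hκ
  -- the involutions of `A`
  have hS : {a : G | a ∈ A ∧ a * a = 1 ∧ a ≠ 1}.ncard ≤ κ := by
    rw [← Set.ncard_image_of_injective _ (conj_injective hna)]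
    refine Set.ncard_le_ncard ?_ (Set.toFinite _)
    rintro _ ⟨a, ⟨ha, ha2, ha1⟩, rfl⟩
    obtain ⟨g, hg⟩ := isConj_iff.1 (one_class hcard R inj h1 h2 h3 ha2 ha1)
    refine ⟨⟨g, ?_⟩, (h.conj a).2 ha⟩
    rw [← hg, map_mul, map_mul, map_inv]
  have hf4 : f ≤ 4 := by
    by_contra hcon
    have h5 : 5 ^ 5 ≤ f ^ 5 := Nat.pow_le_pow_left (by omega) 5
    omega
  rcases (show f ≤ 3 ∨ f = 4 by omega) with hf3 | hf4'
  · have h5 := eighteen R inj (ev_mem_of_le_three R (hE1.trans hf3))
    have h6 : n * 18 ≤ n * κ := Nat.mul_le_mul_left _ (h5.trans hS)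
    have h7 : f * N ≤ 3 * 2835 := Nat.mul_le_mul hf3 hN
    omega
  · have h4096 : 4096 < n := by
      rw [hf4'] at hsm
      omega
    have h7 : f * N ≤ 4 * 2835 := Nat.mul_le_mul hf4'.le hN
    have hκ2 : κ ≤ 2 := by
      by_contra hcon
      have h6 : n * 3 ≤ n * κ := Nat.mul_le_mul_left _ (by omega)
      omega
    have huniq : ∀ u ∈ A, u * u = 1 → u ≠ 1 → u = z := by
      intro u hu hu2 hu1
      by_contra huz
      have hz2 := R.zz
      have iz : z⁻¹ = z := inv_eq_of_mul_eq_one_left hz2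
      obtain ⟨w, hw, hw2, hw1, hwz, hwu⟩ : ∃ w ∈ A, w * w = 1 ∧ w ≠ 1 ∧ w ≠ z ∧ w ≠ u := by
        by_cases hc : u * z = z * u
        · refine ⟨u * z, mul_mem hu hz, ?_, ?_, ?_, ?_⟩
          · calc u * z * (u * z) = u * (z * u) * z := by group
              _ = u * (u * z) * z := by rw [hc]
              _ = (u * u) * (z * z) := by group
              _ = 1 := by rw [hu2, hz2, one_mul]
          · intro h8
            apply huz
            rw [eq_inv_of_mul_eq_one_left h8, iz]
          · intro h8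
            exact hu1 (mul_eq_right.1 h8)
          · intro h8
            exact hz1 (mul_eq_left.1 h8)
        · refine ⟨z * u * z⁻¹, mul_mem (mul_mem hz hu) (inv_mem hz), ?_, ?_, ?_, ?_⟩
          · calc z * u * z⁻¹ * (z * u * z⁻¹) = z * (u * u) * z⁻¹ := by group
              _ = 1 := by rw [hu2]; group
          · intro h8
            apply hu1
            calc u = z⁻¹ * (z * u * z⁻¹) * z := by group
              _ = 1 := by rw [h8]; group
          · intro h8
            apply huz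
            calc u = z⁻¹ * (z * u * z⁻¹) * z := by group
              _ = z := by rw [h8]; group
          · intro h8
            apply hc
            rw [mul_inv_eq_iff_eq_mul] at h8
            exact h8.symm
      have h8 : ({z, u, w} : Set G) ⊆ {a : G | a ∈ A ∧ a * a = 1 ∧ a ≠ 1} := by
        rintro a (rfl | rfl | rfl)
        · exact ⟨hz, hz2, hz1⟩
        · exact ⟨hu, hu2, hu1⟩
        · exact ⟨hw, hw2, hw1⟩
      have h9 : ({z, u, w} : Set G).ncard = 3 :=
        Set.ncard_eq_three.2 ⟨z, u, w, fun h => huz h.symm, fun h => hwz h.symm, fun h => hwu h.symm, rfl⟩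
      have h10 := Set.ncard_le_ncard h8 (Set.toFinite _)
      omega
    have hAC : A ≤ centralizer ({z} : Set G) := by
      intro a ha
      rw [mem_centralizer_singleton_iff]
      have h8 := huniq (a * z * a⁻¹) (mul_mem (mul_mem ha hz) (inv_mem ha))
        (by
          calc a * z * a⁻¹ * (a * z * a⁻¹) = a * (z * z) * a⁻¹ := by group
            _ = 1 := by rw [R.zz]; group)
        (by
          intro h9
          apply hz1
          calc z = a⁻¹ * (a * z * a⁻¹) * a := by group
            _ = 1 := by rw [h9]; group)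
      rwa [mul_inv_eq_iff_eq_mul] at h8
    have hinv : ∀ τ ∈ Γ, ∀ b ∈ centralizer ({z} : Set G), τ b ∈ centralizer ({z} : Set G) := by
      intro τ hτ b hb
      have h8 : τ z = z := huniq (τ z) ((h.inv τ hτ z).2 hz) (by rw [← map_mul, R.zz, map_one])
        (by rw [Ne, map_eq_one_iff τ τ.injective]; exact hz1)
      rw [mem_centralizer_singleton_iff] at hb ⊢
      calc τ b * z = τ b * τ z := by rw [h8]
        _ = τ z * τ b := by rw [← map_mul, ← map_mul, hb]
        _ = z * τ b := by rw [h8]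
    have hik : i * k ∈ centralizer ({z} : Set G) := by
      rw [mem_centralizer_singleton_iff]
      coll R
    have hik2 : i * k * (i * k) = 1 := by coll R
    have hikT : tik.ev z i j k l x₁ x₂ y s = i * k := by
      have := ev_mul R ti tk
      rw [ev_i, ev_k] at this
      exact this.symm
    rcases h.max _ hAC hinv with h8 | h8
    · rw [h8] at hik
      have h9 := huniq _ hik hik2 (by
        intro h9
        have h10 : tik = T.one := inj (hikT.trans (h9.trans ev_one.symm))
        exact absurd (T.beq_iff.2 h10) (by decide +kernel))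
      have h10 : tik = tz := inj (hikT.trans (h9.trans ev_z.symm))
      exact absurd (T.beq_iff.2 h10) (by decide +kernel)
    · apply hz1
      apply center_of hna
      intro x
      have h9 : x ∈ centralizer ({z} : Set G) := by rw [h8]; exact mem_top x
      exact (mem_centralizer_singleton_iff.1 h9).symm

/-- **`KillE` for a group with the data of `U₄(3)`** -/
theorem killE_abs [IsSimpleGroup G] (hcard : Nat.card G = 3265920) (R : Rules true false true z i j k l x₁ x₂ y s)
    (inj : Function.Injective fun t : T => t.ev z i j k l x₁ x₂ y s) (h1 : IsConj z s) (h2 : IsConj z (y * s))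
    (h3 : IsConj z (i * k)) : KillE G := by
  rintro A Γ h ⟨t, htA, ht⟩
  have ht2 : t * t = 1 := by
    rw [← pow_two, ← ht]
    exact pow_orderOf_eq_one t
  have ht1 : t ≠ 1 := by
    rintro rfl
    rw [orderOf_one] at ht
    exact absurd ht (by norm_num)
  obtain ⟨g, hg⟩ := isConj_iff.1 (one_class hcard R inj h1 h2 h3 ht2 ht1)
  refine kill_aux hcard R inj h1 h2 h3 (h.map (MulAut.conj g⁻¹ : G ≃* G)) ⟨t, htA, ?_⟩
  show g⁻¹ * t * g⁻¹⁻¹ = z
  rw [← hg]
  group

end

end Cfsg.Agent.H274.IF.UFour
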